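import Cfsg.Agent.H817.DPi.Def
import Cfsg.Agent.H56.Exc.Fac
import Cfsg.Agent.S0205

/-!
# S4247: groups with two classes of cyclic tori: the configuration gives numerical data (helper311)

For a configuration `Cfg π P K B` in a simple group `S`, `tr B = B ∩ Inn S`:

* `index_dvd` : `|S : tr B|` divides `|P| |K|`;
* `cases` : for classes of big primes `Tori S p C m e`, `p ∉ π`: up to `|Out S|` the index is prime to all classes but
  perhaps one, and then also to `p`;
* `bigp` : `Tori.bigp` with a general bound for the `p`-part of the index.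
-/

set_option autoImplicit false
set_option linter.unusedSectionVars false

namespace Cfsg.Agent.H311.DQ

open Subgroup Cfsg Cfsg.Agent.H988.CPi Cfsg.Agent.H571.RV Cfsg.Agent.H817.DPi Cfsg.Agent.H56.Exc

universe u

/-- the trace on `S` of a subgroup of `Aut S` -/
def tr {S : Type*} [Group S] (B : Subgroup (MulAut S)) : Subgroup S := B.comap (MulAut.conj : S →* MulAut S)

variable {π : Set ℕ} {S : Type u} [Group S] [Finite S] {P : Subgroup S} {K B : Subgroup (MulAut S)}

theorem finite_aut : Finite (MulAut S) :=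
  Finite.of_injective (fun f : MulAut S => (f : S → S)) DFunLike.coe_injective

theorem P_ne_bot (hc : Cfg π P K B) : P ≠ ⊥ := by
  rintro rfl
  exact hc.nnil inferInstance

theorem solv (hc : Cfg π P K B) : Group.IsSolvable P := by
  apply Cfsg.Agent.S0205.result
  rw [← Nat.not_even_iff_odd, even_iff_two_dvd]
  intro h
  exact hc.two (hc.hall.1 2 Nat.prime_two h)

theorem conj_inj [IsSimpleGroup S] (hna : ¬ IsMulCommutative S) :
    Function.Injective (MulAut.conj : S →* MulAut S) := by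
  rw [← MonoidHom.ker_eq_bot_iff]
  rcases Subgroup.Normal.eq_bot_or_eq_top (inferInstance : ((MulAut.conj : S →* MulAut S).ker).Normal) with h | h
  · exact h
  · exfalso
    apply hna
    refine ⟨⟨fun a b => ?_⟩⟩
    have h1 : a ∈ (MulAut.conj : S →* MulAut S).ker := by rw [h]; trivial
    have h2 : (MulAut.conj a) b = b := by
      rw [MonoidHom.mem_ker.1 h1]; rfl
    rw [MulAut.conj_apply, mul_inv_eq_iff_eq_mul] at h2
    exact h2

theorem card_tr_dvd [IsSimpleGroup S] (hna : ¬ IsMulCommutative S) : Nat.card (tr B) ∣ Nat.card B := by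
  have := finite_aut (S := S)
  have h1 : Nat.card ((tr B).map (MulAut.conj : S →* MulAut S)) = Nat.card (tr B) :=
    Nat.card_congr ((tr B).equivMapOfInjective _ (conj_inj hna)).symm.toEquiv
  rw [← h1]
  exact Subgroup.card_dvd_of_le (Subgroup.map_comap_le _ _)

theorem exists_prime_mem (hc : Cfg π P K B) : ∃ r, r.Prime ∧ r ∈ π ∧ r ∣ Nat.card P := by
  obtain ⟨r, hr, hd⟩ := Nat.exists_prime_and_dvd (n := Nat.card P) (by
    rw [Ne, Subgroup.card_eq_one]; exact P_ne_bot hc)
  exact ⟨r, hr, hc.hall.1 r hr hd, hd⟩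

/-- the trace of `B` is a proper subgroup -/
theorem tr_ne_top [IsSimpleGroup S] (hna : ¬ IsMulCommutative S) (hc : Cfg π P K B) : tr B ≠ ⊤ := by
  intro h
  obtain ⟨r, hr, hrπ, hd⟩ := exists_prime_mem hc
  refine hc.piB r hr hrπ ?_
  have h1 : Nat.card (tr B) = Nat.card S := by rw [h, Subgroup.card_top]
  exact (hd.trans (Subgroup.card_subgroup_dvd_card P)).trans (h1 ▸ card_tr_dvd hna)

theorem card_mul_relIndex {G : Type*} [Group G] {H K : Subgroup G} (h : H ≤ K) :
    Nat.card H * H.relIndex K = Nat.card K := by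
  rw [← Subgroup.relIndex_bot_left, ← Subgroup.relIndex_bot_left]
  exact Subgroup.relIndex_mul_relIndex _ _ _ bot_le h

/-- the index of the trace -/
theorem index_tr : (tr B).index = B.relIndex (B ⊔ inn S) := by
  have hfin := finite_aut (S := S)
  have h1 : (tr B).index = B.relIndex (inn S) := Subgroup.index_comap _ _
  rw [h1]
  have e1 := card_mul_relIndex (H := B) (K := B ⊔ inn S) le_sup_left
  have e2 := card_mul_relIndex (H := inn S) (K := B ⊔ inn S) le_sup_right
  rw [Subgroup.relIndex_sup_right B (K := inn S)] at e2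
  have e3 := card_mul_relIndex (H := B ⊓ inn S) (K := B) inf_le_left
  have e4 := card_mul_relIndex (H := B ⊓ inn S) (K := inn S) inf_le_right
  rw [Subgroup.inf_relIndex_left] at e3
  rw [Subgroup.inf_relIndex_right] at e4
  have hB : 0 < Nat.card B := Nat.card_pos
  apply Nat.eq_of_mul_eq_mul_left hB
  rw [e1, ← e2, ← e4]
  nth_rw 1 [← e3]
  ring

/-- **The index divides `|P| |K|`.** -/
theorem index_dvd (hc : Cfg π P K B) : (tr B).index ∣ Nat.card P * Nat.card K := by
  have hfin := finite_aut (S := S)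
  rw [index_tr]
  -- the subgroup `Inn P × K`
  have hcom : ∀ x : P, ∀ k : K, Commute (MulAut.conj (x : S)) (k : MulAut S) := by
    intro x k
    show MulAut.conj (x : S) * (k : MulAut S) = (k : MulAut S) * MulAut.conj (x : S)
    ext y
    simp only [MulAut.mul_apply, MulAut.conj_apply, map_mul, map_inv, hc.fix k k.2 x x.2]
  let φ : P × K →* MulAut S := MonoidHom.noncommCoprod ((MulAut.conj : S →* MulAut S).comp P.subtype) K.subtype hcom
  have hφ : ∀ x : P, ∀ k : K, φ (x, k) = MulAut.conj (x : S) * (k : MulAut S) := fun x k => rfl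
  set G : Subgroup (MulAut S) := B ⊔ inn S with hG
  have hle : φ.range ≤ G := by
    rintro _ ⟨⟨x, k⟩, rfl⟩
    rw [hφ]
    refine mul_mem (hG ▸ le_sup_right (a := B) (show MulAut.conj (x : S) ∈ inn S from ⟨x, rfl⟩)) ?_
    have h1 : (k : MulAut S) ∈ K ⊔ inn S := le_sup_left (a := K) k.2
    rw [hc.sup] at h1
    exact h1
  have h2 : (B.subgroupOf G).index ∣ Nat.card (φ.range.subgroupOf G) := by
    apply index_dvd_of_factor
    intro g
    obtain ⟨x, hx, k, hk, b, hb, h⟩ := hc.fac g g.2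
    have hbG : b ∈ G := le_sup_left (a := B) hb
    have hxk : MulAut.conj x * k ∈ φ.range := ⟨(⟨x, hx⟩, ⟨k, hk⟩), hφ ⟨x, hx⟩ ⟨k, hk⟩⟩
    exact ⟨⟨_, hle hxk⟩, hxk, ⟨b, hbG⟩, hb, Subtype.ext h⟩
  have h3 : Nat.card (φ.range.subgroupOf G) = Nat.card φ.range :=
    Nat.card_congr (Subgroup.subgroupOfEquivOfLe hle).toEquiv
  rw [h3] at h2
  refine h2.trans ?_
  rw [← Nat.card_prod]
  exact Subgroup.card_range_dvd φ

/-- the inner part of `K` centralises `P` -/
theorem tr_K_le (hc : Cfg π P K B) {x : S} (hx : x ∈ P) : tr K ≤ centralizer {x} := by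
  intro y hy
  have h1 := hc.fix (MulAut.conj y) hy x hx
  rw [MulAut.conj_apply, mul_inv_eq_iff_eq_mul] at h1
  rw [mem_centralizer_singleton_iff]
  exact h1

/-- the order of `K` -/
theorem card_K_dvd [IsSimpleGroup S] (hna : ¬ IsMulCommutative S) (K : Subgroup (MulAut S)) :
    Nat.card K ∣ Nat.card (tr K) * (inn S).index := by
  have hfin := finite_aut (S := S)
  have h1 : Nat.card ((tr K).map (MulAut.conj : S →* MulAut S)) = Nat.card (tr K) :=
    Nat.card_congr ((tr K).equivMapOfInjective _ (conj_inj hna)).symm.toEquiv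
  have h2 : (tr K).map (MulAut.conj : S →* MulAut S) = K ⊓ inn S := by
    rw [tr, Subgroup.map_comap_eq, inf_comm]; rfl
  have h3 : Nat.card (K ⊓ inn S : Subgroup (MulAut S)) * (K ⊓ inn S).relIndex K = Nat.card K :=
    card_mul_relIndex inf_le_left
  rw [← h3, ← h2, h1, h2, Subgroup.inf_relIndex_left]
  exact Nat.mul_dvd_mul_left _ (Subgroup.relIndex_dvd_index_of_normal _ _)

/-- a big prime does not divide the order of the inner part of `K` -/
theorem not_dvd_tr_K (hc : Cfg π P K B) {r m e : ℕ} (h : Big S r m e) : ¬ r ∣ Nat.card (tr K) := by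
  intro hd
  have := Fact.mk h.prime
  obtain ⟨y, hy⟩ := exists_prime_orderOf_dvd_card' r hd
  have hy' : orderOf (y : S) = r := by rw [Subgroup.orderOf_coe]; exact hy
  have hcyc := h.cyc _ hy'
  have hle : P ≤ centralizer {(y : S)} := by
    intro x hx
    have h1 := tr_K_le hc hx y.2
    rw [mem_centralizer_singleton_iff] at h1 ⊢
    exact h1.symm
  apply hc.nnil
  have hcycP : IsCyclic P :=
    isCyclic_of_injective (Subgroup.inclusion hle) (Subgroup.inclusion_injective hle)
  let _ := IsCyclic.commGroup (α := P)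
  infer_instance

theorem prime_pow_dvd {r k a b : ℕ} (hr : r.Prime) (h : r ^ k ∣ a * b) (ha : ¬ r ∣ a) : r ^ k ∣ b :=
  (Nat.Coprime.pow_left k ((Nat.Prime.coprime_iff_not_dvd hr).2 ha)).dvd_of_dvd_mul_left h

variable {p : ℕ} {ι : Type*} {C : ι → ℕ → Prop} {m e : ι → ℕ}

/-- **The dichotomy.** -/
theorem cases [IsSimpleGroup S] (hna : ¬ IsMulCommutative S) (hc : Cfg π P K B) (h : Tori S p C m e) (hp : p.Prime)
    (hpπ : p ∉ π) :
    (∀ i r, C i r → ∀ k, r ^ k ∣ (tr B).index → r ^ k ∣ (inn S).index) ∨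
      ∃ i₀, (∀ i r, i ≠ i₀ → C i r → ∀ k, r ^ k ∣ (tr B).index → r ^ k ∣ (inn S).index) ∧
        (∃ r, C i₀ r ∧ r ∣ Nat.card P) ∧ ∀ k, p ^ k ∣ (tr B).index → p ^ k ∣ (inn S).index := by
  have hsol := solv hc
  have key : ∀ i r, C i r → ¬ r ∣ Nat.card P → ∀ k, r ^ k ∣ (tr B).index → r ^ k ∣ (inn S).index := by
    intro i r hr hrP k hk
    have hb := h.big i r hr
    have h1 := (hk.trans (index_dvd hc)).trans (Nat.mul_dvd_mul_left _ (card_K_dvd hna K))
    exact prime_pow_dvd hb.prime (prime_pow_dvd hb.prime h1 hrP) (not_dvd_tr_K hc hb)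
  by_cases hall : ∃ i r, C i r ∧ r ∣ Nat.card P
  · obtain ⟨i₀, r₀, hr₀, hd⟩ := hall
    refine Or.inr ⟨i₀, fun i r hi hr => key i r hr fun hrP => ?_, ⟨r₀, hr₀, hd⟩, fun k hk => ?_⟩
    · exact h.not_isSolvable P hi.symm hr₀ hr hd hrP hsol
    · have h1 := (hk.trans (index_dvd hc)).trans (Nat.mul_dvd_mul_left _ (card_K_dvd hna K))
      have h2 : ¬ p ∣ Nat.card P := fun h2 => hpπ (hc.hall.1 p hp h2)
      refine prime_pow_dvd hp (prime_pow_dvd hp h1 h2) fun h3 => ?_
      have hb := h.big i₀ r₀ hr₀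
      have := Fact.mk hb.prime
      obtain ⟨x, hx⟩ := exists_prime_orderOf_dvd_card' r₀ hd
      have hx' : orderOf (x : S) = r₀ := by rw [Subgroup.orderOf_coe]; exact hx
      exact h.ndvd i₀ ((h3.trans (Subgroup.card_dvd_of_le (tr_K_le hc x.2))).trans (hb.card _ hx'))
  · push Not at hall
    exact Or.inl fun i r hr => key i r hr (hall i r hr)

/-- **Almost full `p`-part.** -/
theorem bigp {G : Type u} [Group G] [Finite G] (hE : CycFixSolv.{u}) (h : Tori G p C m e) (hp : p.Prime) (i : ι)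
    (M : Subgroup G) (hM : ∀ r, C i r → r ∣ Nat.card M) (hbt : ∀ r, C i r → BT G p r) {c : ℕ}
    (hidx : ∀ k, p ^ k ∣ M.index → p ^ k ∣ c) (hei : e i ≠ 0) (hc : c ≠ 0) {N : ℕ} (hN : p ^ N ∣ Nat.card G)
    (hN' : e i * c < p ^ N) (hnum : BigP G p N (e i * c) (C i)) : M = ⊤ := by
  have hfp : Fact p.Prime := ⟨hp⟩
  have hMpos : Nat.card M ≠ 0 := Nat.card_pos.ne'
  have hIpos : M.index ≠ 0 := Subgroup.index_ne_zero_of_finite
  -- `p`-parts
  set a := (Nat.card M).factorization p with ha
  set b := (M.index).factorization p with hb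
  have hab : N ≤ a + b := by
    rw [← Subgroup.card_mul_index M] at hN
    have h1 := (hp.pow_dvd_iff_le_factorization (Nat.mul_ne_zero hMpos hIpos)).1 hN
    rwa [Nat.factorization_mul hMpos hIpos, Finsupp.add_apply] at h1
  have hb1 : p ^ b ∣ c := hidx b (Nat.ordProj_dvd _ _)
  have hb2 : p ^ b ≤ c := Nat.le_of_dvd (Nat.pos_of_ne_zero hc) hb1
  have ha1 : ¬ p ^ a ∣ e i := by
    intro h1
    have h2 := Nat.le_of_dvd (Nat.pos_of_ne_zero hei) h1
    have h3 : p ^ N ≤ p ^ a * p ^ b := by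
      rw [← pow_add]; exact Nat.pow_le_pow_right hp.pos hab
    have h4 := Nat.mul_le_mul h2 hb2
    omega
  obtain ⟨S, _, _, n, hs, hna, hcS, hall, hn⟩ := h.section_p hE hp i M hM hbt (Nat.ordProj_dvd _ _) ha1
  have hdS : Nat.card S ∣ Nat.card G := (Dvd.intro _ hcS.symm).trans (Subgroup.card_subgroup_dvd_card M)
  have hSpos : Nat.card S ≠ 0 := Nat.card_pos.ne'
  have hnpos : n ≠ 0 := by
    rintro rfl
    rw [mul_zero] at hcS
    exact hMpos hcS
  have hkey : p ^ N ∣ e i * c * Nat.card S := by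
    rw [hp.pow_dvd_iff_le_factorization (Nat.mul_ne_zero (Nat.mul_ne_zero hei hc) hSpos),
      Nat.factorization_mul (Nat.mul_ne_zero hei hc) hSpos, Nat.factorization_mul hei hc]
    simp only [Finsupp.add_apply]
    have h1 : a = (Nat.card S).factorization p + n.factorization p := by
      rw [ha, hcS, Nat.factorization_mul hSpos hnpos, Finsupp.add_apply]
    have h2 : n.factorization p ≤ (e i).factorization p :=
      (hp.pow_dvd_iff_le_factorization hei).1 (hn _ (Nat.ordProj_dvd _ _))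
    have h3 : b ≤ c.factorization p := (hp.pow_dvd_iff_le_factorization hc).1 hb1
    omega
  have h1 := hnum S hs hna hdS (fun r hr => (hall r hr).2.1) hkey
  apply Subgroup.eq_top_of_card_eq
  apply Nat.dvd_antisymm (Subgroup.card_subgroup_dvd_card M)
  rw [← h1]
  exact Dvd.intro _ hcS.symm

end Cfsg.Agent.H311.DQ
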