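import Cfsg.Agent.H311.DQ.Abs
import Cfsg.Prelude.Def_KGroupFacts
import Cfsg.Agent.H56.Exc.ToriAll

/-!
# S4247: the general row for the exceptional groups, characteristic not in `π` (helper311)

* `lte` : the exact power of a primitive prime dividing `f` in `(p ^ f) ^ c - 1`;
* `Way` : the data for the treatment of a class by the `p`-part;
* `row_frame` : no configuration.
-/

set_option autoImplicit false
set_option linter.unusedSectionVars false

namespace Cfsg.Agent.H311.DQ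

open Subgroup Cfsg Cfsg.Agent.H988.CPi Cfsg.Agent.H571.RV Cfsg.Agent.H817.DPi Cfsg.Agent.H56.Exc

universe u

/-- the index of the inner automorphisms -/
theorem index_inn (S : Type u) [Group S] : (inn S).index = Nat.card (Cfsg.Out S) := rfl

/-- **Lifting the exponent.** -/
theorem lte {p f c r v : ℕ} (hr : Cfsg.Agent.H436.Prim (p ^ f) c r) (hv : r ^ v ∣ f) : r ^ (v + 1) ∣ (p ^ f) ^ c - 1 := by
  have := Fact.mk hr.prime
  obtain ⟨f', rfl⟩ := hv
  have hp1 : 1 ≤ (p ^ (r ^ v * f')) ^ c := by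
    rcases Nat.eq_zero_or_pos ((p ^ (r ^ v * f')) ^ c) with h | h
    · exfalso
      exact hr.not_dvd (hr.prime.dvd_of_dvd_pow (h ▸ dvd_zero r))
    · exact h
  have h1 : r ∣ (p ^ (r ^ v * f')) ^ c - 1 := hr.dvd dvd_rfl
  have h2 : ((p ^ (r ^ v * f')) ^ c : ℕ) = (p ^ (f' * c)) ^ (r ^ v) := by
    rw [← pow_mul, ← pow_mul]; congr 1; ring
  have h3 : (r : ℤ) ∣ ((p ^ (f' * c) : ℕ) : ℤ) - 1 := by
    rw [← ZMod.intCast_zmod_eq_zero_iff_dvd]
    rw [← ZMod.natCast_eq_zero_iff, Nat.cast_sub hp1, h2] at h1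
    push_cast at h1 ⊢
    rwa [ZMod.pow_card_pow] at h1
  have h4 := dvd_sub_pow_of_dvd_sub h3 v
  rw [one_pow] at h4
  rw [← Int.natCast_dvd_natCast, Nat.cast_sub hp1, h2]
  push_cast at h4 ⊢
  exact h4

/-- the treatment of a class `i₀` meeting `π` by the `p`-part and the class `i` -/
structure Way (G : Type u) [Group G] (p o : ℕ) {ι : Type*} (C : ι → ℕ → Prop) (e : ι → ℕ) (i₀ i : ι) : Prop where
  ne : i ≠ i₀
  bt : ∀ r, C i r → BT G p r
  par : ParP p G
  e_ne : e i ≠ 0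
  num : ∃ N, p ^ N ∣ Nat.card G ∧ e i * o < p ^ N ∧ (p ^ 2 ∣ o → BigP G p N (e i * o) (C i))

variable {S : Type u} [Group S] [Finite S] {p : ℕ} {ι : Type*} {C : ι → ℕ → Prop} {m e : ι → ℕ}

/-- **No configuration.** -/
theorem row_frame [IsSimpleGroup S] (hna : ¬ IsMulCommutative S) (hE : CycFixSolv.{u}) (h : Tori S p C m e)
    (hp : p.Prime) {f c₀ : ℕ} (hf : f ≠ 0) (hc₀ : c₀ ≠ 0) (ho : Nat.card (Cfsg.Out S) = c₀ * f)
    (hr0 : ∀ i r, C i r → ¬ r ∣ c₀) (hv : ∀ i r, C i r → ∀ v, r ^ v ∣ f → r ^ (v + 1) ∣ Nat.card S)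
    (hK : KFull S fun r => ∃ i, C i r ∧ ¬ r ∣ f)
    (hcase : ∀ i₀, (KFull S fun r => ∃ i, i ≠ i₀ ∧ C i r ∧ ¬ r ∣ f) ∨ ∃ i, Way S p (c₀ * f) C e i₀ i)
    {π : Set ℕ} (hpπ : p ∉ π) {P : Subgroup S} {K B : Subgroup (MulAut S)} (hc : Cfg π P K B) : False := by
  have hM := tr_ne_top hna hc
  have hno : ∀ i r, C i r → (∀ k, r ^ k ∣ (tr B).index → r ^ k ∣ (inn S).index) → ¬ r ∣ f → ¬ r ∣ (tr B).index := by
    intro i r hr hk hrf hd
    have h1 := hk 1 (by rwa [pow_one])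
    rw [pow_one, index_inn, ho] at h1
    rcases (h.big i r hr).prime.dvd_mul.1 h1 with h2 | h2
    · exact hr0 i r hr h2
    · exact hrf h2
  rcases cases hna hc h hp hpπ with h1 | ⟨i₀, h1, -, h2⟩
  · exact hM (hK _ fun r ⟨i, hr, hrf⟩ => hno i r hr (h1 i r hr) hrf)
  · rcases hcase i₀ with h3 | ⟨i, h3⟩
    · exact hM (h3 _ fun r ⟨i, hi, hr, hrf⟩ => hno i r hr (h1 i r hi hr) hrf)
    · -- the primes of the class `i` divide the order of the trace
      have hMd : ∀ r, C i r → r ∣ Nat.card (tr B) := by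
        intro r hr
        have hrp := (h.big i r hr).prime
        set v := f.factorization r with hvd
        have h4 := hv i r hr v (Nat.ordProj_dvd _ _)
        by_contra h5
        rw [← Subgroup.card_mul_index (tr B)] at h4
        have h6 := h1 i r h3.ne hr (v + 1) (prime_pow_dvd hrp h4 h5)
        rw [index_inn, ho] at h6
        have h7 := prime_pow_dvd hrp h6 (hr0 i r hr)
        have h8 := (hrp.pow_dvd_iff_le_factorization hf).1 h7
        omega
      obtain ⟨N, hN, hN', hnum⟩ := h3.num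
      have hidx : ∀ k, p ^ k ∣ (tr B).index → p ^ k ∣ c₀ * f := fun k hk => by
        have h4 := h2 k hk
        rwa [index_inn, ho] at h4
      by_cases hp2 : p ^ 2 ∣ c₀ * f
      · exact hM (bigp hE h hp i (tr B) hMd h3.bt hidx h3.e_ne (Nat.mul_ne_zero hc₀ hf) hN hN' (hnum hp2))
      · obtain ⟨r, hr⟩ := h.ne i
        exact h3.par.elim (h3.bt r hr) (tr B) hM (fun h4 => hp2 (hidx 2 h4)) (hMd r hr)

end Cfsg.Agent.H311.DQ
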